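import Cfsg.Agent.H372.Orth
import Cfsg.Agent.LieClassical.OmegaReindex
import Cfsg.Agent.LieClassical.OrthCenter
import Cfsg.Agent.ClassicalGeometry.SiegelGen
import Cfsg.Agent.ClassicalGeometry.OrthDickson

/-!
# Orthogonal sums in `PΩ⁻` (helper884, for S3679)

* `mem_omega`   : isometries of odd order lie in `Ω`;
* `orderOf_mk`  : their images in `PΩ` have the same order;
* `minusSum`    : `O⁺_{2k} × O⁻_{2l+2} → O⁻_{2(k+l)+2}`.
-/

set_option autoImplicit false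

namespace Cfsg.Agent.H884.Mx

open Cfsg Matrix QuadraticMap Cfsg.Agent.LieClassical.OmegaReindex

section lift

variable {F : Type*} [Field F] [Finite F] {ι : Type} [Fintype ι] [DecidableEq ι]

theorem mul_self_mem (Q : QuadraticForm F (ι → F)) (hQ : (polarBilin Q).Nondegenerate)
    (h5 : 5 ≤ Fintype.card ι) (g : isometryGroup F ⇑Q) : g * g ∈ Omega F ⇑Q := by
  by_cases h2 : (2 : F) = 0
  · have : Nonempty ι := by
      rw [← Fintype.card_pos_iff]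
      omega
    have h := Cfsg.Agent.ClassicalGeometry.OrthDickson.index_commutator_two Q h2 hQ (Or.inr (by omega))
    exact Subgroup.mul_self_mem_of_index_two h g
  · exact Cfsg.Agent.ClassicalGeometry.SiegelGen.mul_self_mem_commutator h2 Q hQ g

/-- isometries of odd order lie in `Ω` -/
theorem mem_omega (Q : QuadraticForm F (ι → F)) (hQ : (polarBilin Q).Nondegenerate)
    (h5 : 5 ≤ Fintype.card ι) {g : isometryGroup F ⇑Q} (hg : Odd (orderOf g)) : g ∈ Omega F ⇑Q := by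
  obtain ⟨k, hk⟩ := hg
  have h2 : g = g ^ (k + 1) * g ^ (k + 1) := by
    rw [← pow_add, show k + 1 + (k + 1) = orderOf g + 1 by omega, pow_succ, pow_orderOf_eq_one, one_mul]
  rw [h2]
  exact mul_self_mem Q hQ h5 _

omit [Finite F] in
/-- central elements of `Ω` have order dividing `2` -/
theorem center_sq (Q : QuadraticForm F (ι → F)) (hQ : (polarBilin Q).Nondegenerate) (h5 : 5 ≤ Fintype.card ι)
    (hs : ∃ u : ι → F, u ≠ 0 ∧ Q u = 0) {z : Omega F ⇑Q} (hz : z ∈ Subgroup.center (Omega F ⇑Q)) : z ^ 2 = 1 := by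
  have h2 := (LieClassical.OrthCenter.mem_center_omega_iff hQ (by omega) hs z).1 hz
  apply Subtype.ext
  apply Subtype.ext
  apply Units.ext
  have h4 : ((((z ^ 2 : Omega F ⇑Q) : isometryGroup F ⇑Q) : Matrix.GeneralLinearGroup ι F) : Matrix ι ι F) =
      (((z : isometryGroup F ⇑Q) : Matrix.GeneralLinearGroup ι F) : Matrix ι ι F) ^ 2 := rfl
  rw [h4]
  rcases h2 with h2 | h2
  · rw [h2, one_pow]; rfl
  · rw [h2, neg_one_sq]; rfl

omit [Finite F] in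
/-- odd order central elements are trivial -/
theorem center_odd (Q : QuadraticForm F (ι → F)) (hQ : (polarBilin Q).Nondegenerate) (h5 : 5 ≤ Fintype.card ι)
    (hs : ∃ u : ι → F, u ≠ 0 ∧ Q u = 0) {z : Omega F ⇑Q} (hz : z ∈ Subgroup.center (Omega F ⇑Q))
    (ho : Odd (orderOf z)) : z = 1 := by
  have h1 := orderOf_dvd_of_pow_eq_one (center_sq Q hQ h5 hs hz)
  rcases (Nat.dvd_prime Nat.prime_two).1 h1 with h2 | h2
  · exact orderOf_eq_one_iff.1 h2
  · rw [h2] at ho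
    exact absurd ho (by decide)

omit [Finite F] in
theorem orderOf_mk (Q : QuadraticForm F (ι → F)) (hQ : (polarBilin Q).Nondegenerate) (h5 : 5 ≤ Fintype.card ι)
    (hs : ∃ u : ι → F, u ≠ 0 ∧ Q u = 0) {g : Omega F ⇑Q} {r : ℕ} (hr : r.Prime) (hr2 : r ≠ 2) (hg : orderOf g = r) :
    orderOf (QuotientGroup.mk' (Subgroup.center (Omega F ⇑Q)) g : POmega F ⇑Q) = r := by
  have := Fact.mk hr
  refine orderOf_eq_prime ?_ ?_
  · rw [← map_pow, ← hg, pow_orderOf_eq_one, map_one]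
  · intro h
    have h1 : g ∈ Subgroup.center (Omega F ⇑Q) := (QuotientGroup.eq_one_iff g).1 h
    have h2 := center_odd Q hQ h5 hs h1 (by rw [hg]; exact hr.odd_of_ne_two hr2)
    rw [h2, orderOf_one] at hg
    exact hr.one_lt.ne hg

/-- **commuting isometries of odd prime orders** -/
theorem exists_comm (Q : QuadraticForm F (ι → F)) (hQ : (polarBilin Q).Nondegenerate) (h5 : 5 ≤ Fintype.card ι)
    (hs : ∃ u : ι → F, u ≠ 0 ∧ Q u = 0) {x z : isometryGroup F ⇑Q} {r s : ℕ} (hr : r.Prime) (hr2 : r ≠ 2)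
    (hs' : s.Prime) (hs2 : s ≠ 2) (hx : orderOf x = r) (hz : orderOf z = s) (hxz : x * z = z * x) :
    ∃ x' z' : POmega F ⇑Q, orderOf x' = r ∧ orderOf z' = s ∧ x' * z' = z' * x' := by
  have hx' := mem_omega Q hQ h5 (g := x) (by rw [hx]; exact hr.odd_of_ne_two hr2)
  have hz' := mem_omega Q hQ h5 (g := z) (by rw [hz]; exact hs'.odd_of_ne_two hs2)
  refine ⟨_, _, orderOf_mk Q hQ h5 hs (g := ⟨x, hx'⟩) hr hr2 ?_, orderOf_mk Q hQ h5 hs (g := ⟨z, hz'⟩) hs' hs2 ?_, ?_⟩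
  · rw [← hx]; exact Subgroup.orderOf_mk _ _
  · rw [← hz]; exact Subgroup.orderOf_mk _ _
  · rw [← map_mul, ← map_mul]
    congr 1
    exact Subtype.ext hxz

theorem exists_comm' (Q : QuadraticForm F (ι → F)) (hQ : (polarBilin Q).Nondegenerate) (h5 : 5 ≤ Fintype.card ι)
    (hs : ∃ u : ι → F, u ≠ 0 ∧ Q u = 0) {Q' : (ι → F) → F} (hQ' : ⇑Q = Q') {x z : isometryGroup F Q'} {r s : ℕ}
    (hr : r.Prime) (hr2 : r ≠ 2) (hs' : s.Prime) (hs2 : s ≠ 2) (hx : orderOf x = r) (hz : orderOf z = s)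
    (hxz : x * z = z * x) : ∃ x' z' : POmega F Q', orderOf x' = r ∧ orderOf z' = s ∧ x' * z' = z' * x' := by
  subst hQ'
  exact exists_comm Q hQ h5 hs hr hr2 hs' hs2 hx hz hxz

/-- **three commuting isometries** -/
theorem exists_comm3 (Q : QuadraticForm F (ι → F)) (hQ : (polarBilin Q).Nondegenerate) (h5 : 5 ≤ Fintype.card ι)
    (hs : ∃ u : ι → F, u ≠ 0 ∧ Q u = 0) {x w₁ w₂ : isometryGroup F ⇑Q} {r u : ℕ} (hr : r.Prime) (hr2 : r ≠ 2)
    (hu : u.Prime) (hu2 : u ≠ 2) (hx : orderOf x = r) (h1 : orderOf w₁ = u) (h2 : orderOf w₂ = u)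
    (hx1 : x * w₁ = w₁ * x) (hx2 : x * w₂ = w₂ * x) (h12 : w₁ * w₂ = w₂ * w₁) (hne : w₂ ∉ Subgroup.zpowers w₁) :
    ∃ x' w₁' w₂' : POmega F ⇑Q, orderOf x' = r ∧ orderOf w₁' = u ∧ orderOf w₂' = u ∧ x' * w₁' = w₁' * x' ∧
      x' * w₂' = w₂' * x' ∧ w₁' * w₂' = w₂' * w₁' ∧ w₂' ∉ Subgroup.zpowers w₁' := by
  have hx' := mem_omega Q hQ h5 (g := x) (by rw [hx]; exact hr.odd_of_ne_two hr2)
  have h1' := mem_omega Q hQ h5 (g := w₁) (by rw [h1]; exact hu.odd_of_ne_two hu2)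
  have h2' := mem_omega Q hQ h5 (g := w₂) (by rw [h2]; exact hu.odd_of_ne_two hu2)
  refine ⟨_, _, _, orderOf_mk Q hQ h5 hs (g := ⟨x, hx'⟩) hr hr2 ?_, orderOf_mk Q hQ h5 hs (g := ⟨w₁, h1'⟩) hu hu2 ?_,
    orderOf_mk Q hQ h5 hs (g := ⟨w₂, h2'⟩) hu hu2 ?_, ?_, ?_, ?_, ?_⟩
  · rw [← hx]; exact Subgroup.orderOf_mk _ _
  · rw [← h1]; exact Subgroup.orderOf_mk _ _
  · rw [← h2]; exact Subgroup.orderOf_mk _ _
  · rw [← map_mul, ← map_mul]
    congr 1
    exact Subtype.ext hx1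
  · rw [← map_mul, ← map_mul]
    congr 1
    exact Subtype.ext hx2
  · rw [← map_mul, ← map_mul]
    congr 1
    exact Subtype.ext h12
  · intro h
    obtain ⟨k, hk⟩ := Subgroup.mem_zpowers_iff.1 h
    rw [← map_zpow] at hk
    have h3 : QuotientGroup.mk' (Subgroup.center (Omega F ⇑Q)) ((⟨w₁, h1'⟩ : Omega F ⇑Q) ^ k * (⟨w₂, h2'⟩)⁻¹) = 1 := by
      rw [map_mul, map_inv, hk, mul_inv_cancel]
    have h4 := (QuotientGroup.eq_one_iff _).1 h3
    have hcomm : Commute (w₁ ^ k) w₂⁻¹ := (show Commute w₁ w₂ from h12).zpow_left k |>.inv_right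
    have e1 : w₁ ^ u = 1 := by rw [← h1]; exact pow_orderOf_eq_one _
    have e2 : w₂ ^ u = 1 := by rw [← h2]; exact pow_orderOf_eq_one _
    have h5' : (w₁ ^ k * w₂⁻¹) ^ u = 1 := by
      rw [hcomm.mul_pow, inv_pow, e2, inv_one, mul_one, ← zpow_natCast, ← _root_.zpow_mul, mul_comm,
        _root_.zpow_mul, zpow_natCast, e1, _root_.one_zpow]
    have h6 : ((⟨w₁, h1'⟩ : Omega F ⇑Q) ^ k * (⟨w₂, h2'⟩)⁻¹) ^ u = 1 := Subtype.ext h5'
    have h7 := center_odd Q hQ h5 hs h4 (Odd.of_dvd_nat (hu.odd_of_ne_two hu2) (orderOf_dvd_of_pow_eq_one h6))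
    have h8 : w₁ ^ k * w₂⁻¹ = 1 := congrArg Subtype.val h7
    exact hne ⟨k, mul_inv_eq_one.1 h8⟩

theorem exists_comm3' (Q : QuadraticForm F (ι → F)) (hQ : (polarBilin Q).Nondegenerate) (h5 : 5 ≤ Fintype.card ι)
    (hs : ∃ u : ι → F, u ≠ 0 ∧ Q u = 0) {Q' : (ι → F) → F} (hQ' : ⇑Q = Q') {x w₁ w₂ : isometryGroup F Q'} {r u : ℕ}
    (hr : r.Prime) (hr2 : r ≠ 2) (hu : u.Prime) (hu2 : u ≠ 2) (hx : orderOf x = r) (h1 : orderOf w₁ = u)
    (h2 : orderOf w₂ = u) (hx1 : x * w₁ = w₁ * x) (hx2 : x * w₂ = w₂ * x) (h12 : w₁ * w₂ = w₂ * w₁)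
    (hne : w₂ ∉ Subgroup.zpowers w₁) :
    ∃ x' w₁' w₂' : POmega F Q', orderOf x' = r ∧ orderOf w₁' = u ∧ orderOf w₂' = u ∧ x' * w₁' = w₁' * x' ∧
      x' * w₂' = w₂' * x' ∧ w₁' * w₂' = w₂' * w₁' ∧ w₂' ∉ Subgroup.zpowers w₁' := by
  subst hQ'
  exact exists_comm3 Q hQ h5 hs hr hr2 hu hu2 hx h1 h2 hx1 hx2 h12 hne

end lift

section sum

variable {F : Type*} [Field F]

/-- the bijection of indices -/
def idxm (k l : ℕ) : (Fin k ⊕ Fin k) ⊕ ((Fin l ⊕ Fin l) ⊕ Fin 2) ≃ (Fin (k + l) ⊕ Fin (k + l)) ⊕ Fin 2 :=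
  (Equiv.sumAssoc _ _ _).symm.trans (Equiv.sumCongr
    ((Equiv.sumSumSumComm (Fin k) (Fin k) (Fin l) (Fin l)).trans (Equiv.sumCongr finSumFinEquiv finSumFinEquiv))
    (Equiv.refl _))

theorem quadFormMinus_add (k l : ℕ) (a b : F) (v : (Fin (k + l) ⊕ Fin (k + l)) ⊕ Fin 2 → F) :
    quadFormMinus (k + l) F a b v = H372.sumQ (quadFormPlus k F) (quadFormMinus l F a b) (v ∘ idxm k l) := by
  unfold quadFormMinus quadFormPlus H372.sumQ
  rw [Fin.sum_univ_add, add_assoc]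
  rfl

/-- `O⁺_{2k} × O⁻_{2l+2} → O⁻_{2(k+l)+2}` -/
def minusSum (k l : ℕ) (a b : F) :
    isometryGroup F (quadFormPlus k F) × isometryGroup F (quadFormMinus l F a b) →*
      isometryGroup F (quadFormMinus (k + l) F a b) :=
  (isometryGroupReindex (idxm k l) (H372.sumQ (quadFormPlus k F) (quadFormMinus l F a b)) (quadFormMinus (k + l) F a b)
    (quadFormMinus_add k l a b)).toMonoidHom.comp (H372.isoSum _ _)

theorem minusSum_injective (k l : ℕ) (a b : F) : Function.Injective (minusSum k l a b) :=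
  (isometryGroupReindex (idxm k l) (H372.sumQ (quadFormPlus k F) (quadFormMinus l F a b)) (quadFormMinus (k + l) F a b)
    (quadFormMinus_add k l a b)).injective.comp (H372.isoSum_injective _ _)

end sum

end Cfsg.Agent.H884.Mx
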